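import Cfsg.Agent.Characters.Clifford
import Cfsg.Agent.Characters.CCBasic

/-!
# Restriction of a character to an abelian subgroup with one value outside the identity

`exists_nat` : if `θ` is a character of the finite commutative group `E ≠ 1` with `θ e = v` for all `e ≠ 1` then
`θ 1 = a + (|E| - 1) b` and `v = a - b` with natural numbers `a`, `b`.
-/

set_option autoImplicit false

open Cfsg Subgroup
open Cfsg.Agent.Characters.Core

namespace Cfsg.Agent.H29.ElemBound

variable {E : Type*} [Group E] [Finite E]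

theorem exists_irr_ne_one' [Nontrivial E] (hc : ∀ a b : E, a * b = b * a) :
    ∃ l : E → ℂ, IsIrrCharacter E l ∧ l ≠ 1 := by
  classical
  have : Fintype E := Fintype.ofFinite E
  have : Finite (IrrCharacter E) := finite_irr
  have : Fintype (IrrCharacter E) := Fintype.ofFinite _
  by_contra hcon
  push Not at hcon
  have hf : IsClassFunction E (fun e => if e = 1 then (1 : ℂ) else 0) := by
    intro g h
    have h1 : h * g * h⁻¹ = g := by rw [hc h g, mul_inv_cancel_right]
    rw [h1]
  have h1 := classFunction_eq_sum hf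
  obtain ⟨e, he⟩ := exists_ne (1 : E)
  have h2 := congrFun h1 1
  have h3 := congrFun h1 e
  rw [Finset.sum_apply] at h2 h3
  have h4 : ∀ χ : IrrCharacter E, (χ : E → ℂ) = 1 := fun χ => hcon χ χ.2
  simp only [Pi.smul_apply, h4, Pi.one_apply] at h2 h3
  rw [← h2, if_neg he, if_pos trivial] at h3
  exact zero_ne_one h3

theorem exists_nat (hc : ∀ a b : E, a * b = b * a) {θ : E → ℂ} (hθ : IsCharacter E θ) {v : ℂ}
    (hE : 1 < Nat.card E) (hv : ∀ e : E, e ≠ 1 → θ e = v) :
    ∃ a b : ℕ, θ 1 = a + (Nat.card E - 1) * b ∧ v = a - b := by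
  classical
  have : Fintype E := Fintype.ofFinite E
  have : Nontrivial E := Finite.one_lt_card_iff_nontrivial.1 hE
  obtain ⟨l, hl, hl1⟩ := exists_irr_ne_one' hc
  obtain ⟨a, ha⟩ := classInner_isNat hθ (isCharacter_one (G := E))
  obtain ⟨b, hb⟩ := classInner_isNat hθ (isIrr_isCharacter hl)
  let δ : E → ℂ := fun e => if e = 1 then 1 else 0
  have hδ : θ = v • (1 : E → ℂ) + (θ 1 - v) • δ := by
    funext e
    simp only [Pi.add_apply, Pi.smul_apply, Pi.one_apply, smul_eq_mul, mul_one, δ]
    by_cases he : e = 1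
    · rw [if_pos he, he]; ring
    · rw [if_neg he, hv e he]; ring
  have hin : ∀ χ : E → ℂ, χ 1 = 1 → classInner δ χ = (Nat.card E : ℂ)⁻¹ := by
    intro χ hχ
    rw [classInner_def, Finset.sum_eq_single 1]
    · simp only [δ, if_pos, hχ, map_one, mul_one]
    · intro e _ he
      simp only [δ, if_neg he, zero_mul]
    · exact fun h => absurd (Finset.mem_univ _) h
  have hn : (Nat.card E : ℂ) ≠ 0 := card_ne_zero_complex
  rw [hδ, classInner_add_left, classInner_smul_left, classInner_smul_left, hin _ rfl,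
    classInner_irr_self isIrr_one, mul_one] at ha
  rw [hδ, classInner_add_left, classInner_smul_left, classInner_smul_left,
    hin l (Characters.CCBasic.irr_apply_one_of_comm hc hl), classInner_irr_ne isIrr_one hl (Ne.symm hl1), mul_zero,
    zero_add] at hb
  rw [hb] at ha
  refine ⟨a, b, ?_, by rw [← ha]; ring⟩
  have h1 : θ 1 - v = b * Nat.card E := by
    rw [← hb]
    field_simp
  rw [← ha]
  linear_combination h1

/-- **Pure subgroups**: `A` commutative, all its elements `≠ 1` conjugate to `z`. -/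
theorem pure {G : Type*} [Group G] [Finite G] {χ : G → ℂ} (hχ : IsIrrCharacter G χ)
    (hker : ∀ x, χ x = χ 1 → x = 1) {d : ℕ} (h1 : χ 1 = d) (A : Subgroup G)
    (hc : ∀ a ∈ A, ∀ b ∈ A, a * b = b * a) {z : G} (hz : z ≠ 1) (hA : 1 < Nat.card A)
    (hconj : ∀ a ∈ A, a ≠ 1 → IsConj a z) :
    ∃ a b : ℕ, 1 ≤ b ∧ d = a + (Nat.card A - 1) * b ∧ χ z = a - b := by
  have hθ : IsCharacter A (fun x : A => χ x) := isCharacter_comp A.subtype (isIrr_isCharacter hχ)
  obtain ⟨a, b, h2, h3⟩ := exists_nat (fun x y => Subtype.ext (hc x x.2 y y.2)) hθ (v := χ z) hA (fun e he => by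
    have h4 : (e : G) ≠ 1 := fun h => he (Subtype.ext h)
    obtain ⟨g, hg⟩ := isConj_iff.1 (hconj e e.2 h4)
    have h5 := isIrr_isClassFunction hχ (e : G) g
    rw [hg] at h5
    exact h5.symm)
  have h2' : (d : ℂ) = a + (Nat.card A - 1) * b := by
    rw [← h1, ← h2]
    rfl
  have h4 : d = a + (Nat.card A - 1) * b := by
    have h5 : ((d : ℕ) : ℂ) = ((a + (Nat.card A - 1) * b : ℕ) : ℂ) := by
      rw [h2']
      push_cast [Nat.cast_sub hA.le]
      ring
    exact_mod_cast h5
  refine ⟨a, b, ?_, h4, h3⟩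
  by_contra hb
  have hb0 : b = 0 := by omega
  subst hb0
  apply hz
  apply hker
  rw [h3, h1, h4]
  simp

end Cfsg.Agent.H29.ElemBound
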