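import Cfsg.Agent.H202.TP.Defs

/-!
# Block TP (S3536), the row `PSU_d(u)`: arithmetic (helper29)
-/

set_option autoImplicit false

namespace Cfsg.Agent.H29.TPNum

open Cfsg.Agent.H202.TP

/-- `p ^ i = 2 ^ t + 1` forces `i = 1` or `p ^ i = 9` -/
theorem fermat_pow {p i t : ℕ} (hp : p.Prime) (hp2 : p ≠ 2) (hi : i ≠ 0) (ht : t ≠ 0) (h : p ^ i = 2 ^ t + 1) :
    i = 1 ∨ p ^ i = 9 := by
  have hpo : Odd p := hp.odd_of_ne_two hp2
  have hp3 : 3 ≤ p := by
    have := hp.two_le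
    omega
  rcases Nat.even_or_odd i with he | ho
  · right
    obtain ⟨j, rfl⟩ := he
    have hj : j ≠ 0 := by omega
    obtain ⟨P, hP⟩ : ∃ P, P = p ^ j := ⟨_, rfl⟩
    have hPo : Odd P := hP ▸ hpo.pow
    have hP3 : 3 ≤ P := by
      rw [hP]
      exact hp3.trans (Nat.le_self_pow hj p)
    have e : p ^ (j + j) = P * P := by rw [hP, pow_add]
    rw [e] at h ⊢
    have e2 : 2 ^ t = (P - 1) * (P + 1) := by
      obtain ⟨c, rfl⟩ : ∃ c, P = c + 1 := ⟨P - 1, by omega⟩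
      rw [Nat.add_sub_cancel]
      have : (c + 1) * (c + 1) = c * (c + 1 + 1) + 1 := by ring
      omega
    obtain ⟨a, -, ha⟩ := (Nat.dvd_prime_pow Nat.prime_two).1 (Dvd.intro _ e2.symm)
    obtain ⟨b, -, hb⟩ := (Nat.dvd_prime_pow Nat.prime_two).1 (Dvd.intro_left _ e2.symm)
    -- `2 ^ b = 2 ^ a + 2`
    have h1 : a = 1 := by
      rcases Nat.lt_or_ge a 2 with h2 | h2
      · rcases Nat.eq_zero_or_pos a with h3 | h3
        · subst h3
          rw [pow_zero] at ha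
          omega
        · omega
      · exfalso
        obtain ⟨a', rfl⟩ : ∃ a', a = a' + 2 := ⟨a - 2, by omega⟩
        have h3 : 2 ^ (a' + 2) = 4 * 2 ^ a' := by rw [pow_add]; ring
        have h4 : 2 ≤ b := by
          by_contra h4
          have : 2 ^ b ≤ 2 ^ 1 := Nat.pow_le_pow_right (by norm_num) (by omega)
          omega
        obtain ⟨b', rfl⟩ : ∃ b', b = b' + 2 := ⟨b - 2, by omega⟩
        have h5 : 2 ^ (b' + 2) = 4 * 2 ^ b' := by rw [pow_add]; ring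
        omega
    subst h1
    have : P = 3 := by omega
    rw [this]
  · left
    by_contra hi1
    have h1 : (∑ j ∈ Finset.range i, p ^ j) * (p - 1) = p ^ i - 1 := by
      have := Nat.geomSum_eq (m := p) (by omega) i
      rw [this]
      exact Nat.div_mul_cancel (by simpa using Nat.sub_dvd_pow_sub_pow p 1 i)
    have h2 : (∑ j ∈ Finset.range i, p ^ j) ∣ 2 ^ t := ⟨p - 1, by rw [h1, h]; rfl⟩
    have h3 : Odd (∑ j ∈ Finset.range i, p ^ j) := by
      rw [Finset.odd_sum_iff_odd_card_odd]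
      have : (Finset.range i).filter (fun j => Odd (p ^ j)) = Finset.range i :=
        Finset.filter_true_of_mem fun j _ => hpo.pow
      rw [this, Finset.card_range]
      exact ho
    have h4 : (∑ j ∈ Finset.range i, p ^ j) = 1 := by
      obtain ⟨a, -, ha⟩ := (Nat.dvd_prime_pow Nat.prime_two).1 h2
      rcases Nat.eq_zero_or_pos a with h5 | h5
      · rw [ha, h5, pow_zero]
      · exfalso
        rw [ha] at h3
        exact (Nat.not_even_iff_odd.2 h3) (even_iff_two_dvd.2 (dvd_pow_self 2 h5.ne'))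
    rw [h4, one_mul] at h1
    have h5 : p ^ 2 ≤ p ^ i := Nat.pow_le_pow_right (by omega) (by omega)
    have h6 : 3 * p ≤ p ^ 2 := by nlinarith
    omega

section

variable {p q k u : ℕ} {T : Type*} [Group T]

theorem pow8_dvd (h : TK p q k T) : p ^ 8 - 1 ∣ 2 * (mn q k - 1) := by
  rw [two_mn_sub h.hk2 h.odd]
  obtain ⟨a, -, ha⟩ := h.pow
  obtain ⟨j, rfl⟩ : ∃ j, k = j + 3 := ⟨k - 3, by have := h.hk; omega⟩
  have e : q ^ 2 ^ (j + 3) = (p ^ 8) ^ (a * 2 ^ j) := by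
    rw [ha, ← pow_mul, ← pow_mul, pow_add]
    congr 1
    ring
  rw [e]
  simpa using Nat.sub_dvd_pow_sub_pow (p ^ 8) 1 (a * 2 ^ j)

/-- **the common lemma** -/
theorem no_sub (h : TK p q k T) (hu : 2 ≤ u) (hpp : ∃ l t, l.Prime ∧ t ≠ 0 ∧ u = l ^ t) (x : T)
    (hx : (mn q k - 1) * (u + 1) = u * orderOf x) (hodd : Even u → Odd (orderOf x)) : False := by
  have hm := h.mn_ge
  rcases Nat.even_or_odd u with he | ho
  · have hN := hodd he
    obtain ⟨l, t, hl, ht, hlt⟩ := hpp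
    have hl2 : l = 2 := by
      have h1 : 2 ∣ l ^ t := hlt ▸ even_iff_two_dvd.1 he
      exact ((Nat.prime_dvd_prime_iff_eq Nat.prime_two hl).1 (Nat.prime_two.dvd_of_dvd_pow h1)).symm
    subst hl2
    obtain ⟨j, hj⟩ := h.tor_all x (fun s hs hs2 hsd => by
      have h1 : s ∣ u * orderOf x := hx ▸ hsd.mul_right _
      rcases hs.dvd_mul.1 h1 with h2 | h2
      · rw [hlt] at h2
        exact absurd ((Nat.prime_dvd_prime_iff_eq hs Nat.prime_two).1 (hs.dvd_of_dvd_pow h2)) hs2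
      · exact h2)
    have h1 : (mn q k - 1) * (u + 1) ∣ (mn q k - 1) * (p ^ j * u) := by
      rw [hx]
      calc u * orderOf x ∣ u * (p ^ j * (mn q k - 1)) := Nat.mul_dvd_mul_left _ hj
        _ = (mn q k - 1) * (p ^ j * u) := by ring
    have h2 : u + 1 ∣ p ^ j * u := Nat.dvd_of_mul_dvd_mul_left (by omega) h1
    have h3 : u + 1 ∣ p ^ j := Nat.Coprime.dvd_of_dvd_mul_right (by simp) h2
    obtain ⟨i, -, hi⟩ := (Nat.dvd_prime_pow h.prime).1 h3
    have hi0 : i ≠ 0 := by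
      rintro rfl
      rw [pow_zero] at hi
      omega
    have h4 : p ^ i = 2 ^ t + 1 := by rw [← hi, hlt]
    have h5 := pow8_dvd h
    have h6 : 4 * u ∣ p ^ 8 - 1 := by
      rcases fermat_pow h.prime h.ne_two hi0 ht h4 with h7 | h7
      · subst h7
        rw [pow_one] at hi
        obtain ⟨c, hc⟩ := he
        obtain ⟨a, ha⟩ : ∃ a, a = c * 2 := ⟨_, rfl⟩
        have hp : p = u + 1 := hi.symm
        have e : p ^ 8 - 1 = u * (u + 2) * (p ^ 2 + 1) * (p ^ 4 + 1) := by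
          rw [hp]
          have : (u + 1) ^ 8 = u * (u + 2) * ((u + 1) ^ 2 + 1) * ((u + 1) ^ 4 + 1) + 1 := by ring
          omega
        rw [e]
        have e2 : u + 2 = 2 * (c + 1) := by omega
        have e3 : p ^ 2 + 1 = 2 * (2 * c ^ 2 + 2 * c + 1) := by
          rw [hp, hc]; ring
        rw [e2, e3]
        exact ⟨(c + 1) * (2 * c ^ 2 + 2 * c + 1) * (p ^ 4 + 1), by ring⟩
      · have h8 : p = 3 := by
          have h9 : p ∣ 3 ^ 2 := by
            rw [show (3 : ℕ) ^ 2 = 9 by norm_num, ← h7]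
            exact dvd_pow_self p hi0
          exact (Nat.prime_dvd_prime_iff_eq h.prime Nat.prime_three).1 (h.prime.dvd_of_dvd_pow h9)
        have h9 : u = 8 := by omega
        subst h8
        rw [h9]
        norm_num
    have h7 : 2 * u ∣ mn q k - 1 := by
      apply Nat.dvd_of_mul_dvd_mul_left (k := 2) (by norm_num)
      rw [← mul_assoc]
      exact h6.trans h5
    have h8 : u * 2 ∣ u * orderOf x := by
      rw [← hx, mul_comm u 2]
      exact h7.mul_right _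
    have h9 : 2 ∣ orderOf x := Nat.dvd_of_mul_dvd_mul_left (by omega) h8
    exact (Nat.not_even_iff_odd.2 hN) (even_iff_two_dvd.2 h9)
  · have hx0 : orderOf x ≠ 0 := by
      intro h0
      rw [h0, mul_zero] at hx
      have : 0 < (mn q k - 1) * (u + 1) := Nat.mul_pos (by omega) (by omega)
      omega
    obtain ⟨j, N, hN, hjN⟩ := Nat.exists_eq_two_pow_mul_odd hx0
    have h1 : 2 ^ j ∣ mn q k - 1 := h.two j x (by rw [hjN]; exact dvd_mul_right _ _)
    have h2 : 2 ^ j * 2 ∣ 2 ^ j * (u * N) := by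
      have h3 : 2 ^ j * 2 ∣ (mn q k - 1) * (u + 1) := mul_dvd_mul h1 (even_iff_two_dvd.1 ho.add_one)
      rw [hx, hjN] at h3
      calc 2 ^ j * 2 ∣ u * (2 ^ j * N) := h3
        _ = 2 ^ j * (u * N) := by ring
    have h3 : 2 ∣ u * N := Nat.dvd_of_mul_dvd_mul_left (pow_pos (by norm_num) j) h2
    exact (Nat.not_even_iff_odd.2 (ho.mul hN)) (even_iff_two_dvd.2 h3)

end

/-- doubling -/
theorem geom_cong {y A : ℤ} (h : 2 * A ∣ y - 1) (N : ℕ) (c : ℕ) :
    A * 2 ^ c ∣ (∑ i ∈ Finset.range (2 ^ c * N), y ^ i) - ((2 ^ c * N : ℕ) : ℤ) := by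
  have hy : ∀ i : ℕ, y - 1 ∣ y ^ i - 1 := fun i => by simpa using sub_dvd_pow_sub_pow y 1 i
  induction c with
  | zero =>
    rw [pow_zero, pow_zero, one_mul, mul_one]
    have e : (∑ i ∈ Finset.range N, y ^ i) - (N : ℤ) = ∑ i ∈ Finset.range N, (y ^ i - 1) := by
      rw [Finset.sum_sub_distrib]
      simp
    rw [e]
    exact Finset.dvd_sum fun i _ => ((Dvd.intro_left 2 rfl).trans h).trans (hy i)
  | succ c ih =>
    obtain ⟨M, hM⟩ : ∃ M, M = 2 ^ c * N := ⟨_, rfl⟩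
    rw [← hM] at ih
    have e0 : 2 ^ (c + 1) * N = M + M := by rw [hM, pow_succ]; ring
    obtain ⟨S, hS⟩ : ∃ S, S = ∑ i ∈ Finset.range M, y ^ i := ⟨_, rfl⟩
    have e1 : (∑ i ∈ Finset.range (M + M), y ^ i) = S + y ^ M * S := by
      rw [Finset.sum_range_add, hS, Finset.mul_sum]
      congr 1
      exact Finset.sum_congr rfl fun i _ => by rw [pow_add]
    have e2 : y ^ M - 1 = (y - 1) * S := by
      rw [hS, mul_comm]
      exact (geom_sum_mul y M).symm
    rw [e0, e1]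
    rw [← hS] at ih
    have e3 : S + y ^ M * S - ((M + M : ℕ) : ℤ) = 2 * (S - M) + (y - 1) * S * S := by
      rw [← e2]
      push_cast
      ring
    rw [e3]
    apply dvd_add
    · rw [pow_succ, ← mul_assoc, mul_comm 2]
      exact mul_dvd_mul ih dvd_rfl
    · have h2 : (2 : ℤ) ^ c ∣ S := by
        have h3 : (2 : ℤ) ^ c ∣ S - M := (Dvd.intro_left A rfl).trans ih
        have h4 : (2 : ℤ) ^ c ∣ (M : ℤ) := by
          rw [hM]
          push_cast
          exact dvd_mul_right _ _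
        have := dvd_add h3 h4
        rwa [sub_add_cancel] at this
      calc A * 2 ^ (c + 1) = (2 * A) * 2 ^ c := by rw [pow_succ]; ring
        _ ∣ (y - 1) * S := mul_dvd_mul h h2
        _ ∣ (y - 1) * S * S := dvd_mul_right _ _

/-- the case `g = d`, `u` odd -/
theorem no_odd {m d u N : ℕ} (hd : Odd d) (hd3 : 3 ≤ d) (hu : Odd u) (hu3 : 3 ≤ u) (hm : 1 ≤ m)
    (h1 : m * d * (u + 1) = u ^ d + 1) (h2 : N * d = u ^ (d - 1) - 1) (h3 : ∀ j, 2 ^ j ∣ N → 2 ^ j ∣ m - 1) :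
    False := by
  obtain ⟨N₀, rfl⟩ := hd
  have hN0 : N₀ ≠ 0 := by omega
  obtain ⟨a, s, hs, has⟩ := Nat.exists_eq_two_pow_mul_odd (n := u + 1) (by omega)
  obtain ⟨b, r, hr, hbr⟩ := Nat.exists_eq_two_pow_mul_odd hN0
  obtain ⟨y, hy⟩ : ∃ y : ℤ, y = (u : ℤ) ^ 2 := ⟨_, rfl⟩
  obtain ⟨S, hS⟩ : ∃ S, S = ∑ i ∈ Finset.range N₀, y ^ i := ⟨_, rfl⟩
  obtain ⟨c, hc⟩ := hu
  have hasz : (u : ℤ) + 1 = 2 ^ a * s := by exact_mod_cast has
  have hy1 : (2 : ℤ) * 2 ^ a ∣ y - 1 := by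
    have e : y - 1 = (u - 1) * (u + 1) := by rw [hy]; ring
    rw [e, hasz, hc]
    push_cast
    exact ⟨c * s, by ring⟩
  have hg := geom_cong hy1 r b
  rw [← hbr, ← hS] at hg
  have hyS : y ^ N₀ - 1 = (y - 1) * S := by
    rw [hS, mul_comm]
    exact (geom_sum_mul y N₀).symm
  have hyN : y ^ N₀ = (u : ℤ) ^ (2 * N₀) := by rw [hy, ← pow_mul]
  have h1z : (m : ℤ) * (2 * N₀ + 1) * (u + 1) = (u : ℤ) ^ (2 * N₀ + 1) + 1 := by exact_mod_cast h1
  have hpos : 1 ≤ u ^ (2 * N₀) := Nat.one_le_pow _ _ (by omega)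
  have h2z : (N : ℤ) * (2 * N₀ + 1) = (u : ℤ) ^ (2 * N₀) - 1 := by
    rw [Nat.add_sub_cancel] at h2
    have : ((N * (2 * N₀ + 1) : ℕ) : ℤ) = ((u ^ (2 * N₀) - 1 : ℕ) : ℤ) := by rw [h2]
    push_cast [hpos] at this
    exact this
  have hbz : (N₀ : ℤ) = 2 ^ b * r := by exact_mod_cast hbr
  have hSb : (2 : ℤ) ^ b ∣ S := by
    have h4 : (2 : ℤ) ^ b ∣ S - N₀ := (Dvd.intro_left (2 ^ a) rfl).trans hg
    have h5 : (2 : ℤ) ^ b ∣ (N₀ : ℤ) := by rw [hbz]; exact dvd_mul_right _ _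
    have := dvd_add h4 h5
    rwa [sub_add_cancel] at this
  -- `2 A H` divides `N`
  have h4 : 2 ^ (a + b + 1) ∣ N := by
    have h5 : (2 : ℤ) ^ (a + b + 1) ∣ (N : ℤ) * (2 * N₀ + 1) := by
      rw [h2z, ← hyN, hyS]
      calc (2 : ℤ) ^ (a + b + 1) = (2 * 2 ^ a) * 2 ^ b := by ring
        _ ∣ (y - 1) * S := mul_dvd_mul hy1 hSb
    have h6 : 2 ^ (a + b + 1) ∣ N * (2 * N₀ + 1) := by exact_mod_cast h5
    exact (Nat.Coprime.pow_left _ (Nat.coprime_two_left.2 ⟨N₀, rfl⟩)).dvd_of_dvd_mul_right h6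
  have h5 := h3 _ h4
  have h5z : (2 : ℤ) ^ (a + b + 1) ∣ (m : ℤ) - 1 := by
    have : ((2 ^ (a + b + 1) : ℕ) : ℤ) ∣ ((m - 1 : ℕ) : ℤ) := Int.natCast_dvd_natCast.2 h5
    push_cast [hm] at this
    exact this
  have hu1 : (u : ℤ) + 1 ≠ 0 := by positivity
  have e1 : ((m : ℤ) - 1) * (2 * N₀ + 1) = u * (u - 1) * (S - N₀) + (u - 2) * (u + 1) * N₀ := by
    apply mul_right_cancel₀ hu1
    have e2 : (u : ℤ) ^ (2 * N₀ + 1) = u * y ^ N₀ := by rw [hyN]; ring
    linear_combination h1z + e2 + (u : ℤ) * hyS + u * S * (hy)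
  have h6 : (2 : ℤ) ^ (a + b + 1) ∣ u * (u - 1) * (S - N₀) := by
    have h7 : (2 : ℤ) ∣ u * (u - 1) := by
      rw [hc]
      push_cast
      exact ⟨(2 * c + 1) * c, by ring⟩
    calc (2 : ℤ) ^ (a + b + 1) = 2 * (2 ^ a * 2 ^ b) := by ring
      _ ∣ (u * (u - 1)) * (S - N₀) := mul_dvd_mul h7 hg
  have h7 : (2 : ℤ) ^ (a + b + 1) ∣ (u - 2) * (u + 1) * N₀ := by
    have h8 := dvd_sub (h5z.mul_right (2 * N₀ + 1)) h6
    rw [e1, add_sub_cancel_left] at h8
    exact h8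
  rw [hasz, hbz] at h7
  have e3 : ((u : ℤ) - 2) * (2 ^ a * s) * (2 ^ b * r) = 2 ^ (a + b) * ((u - 2) * s * r) := by ring
  rw [e3, pow_succ] at h7
  have h8 := Int.dvd_of_mul_dvd_mul_left (by positivity) h7
  obtain ⟨s', rfl⟩ := hs
  obtain ⟨r', rfl⟩ := hr
  rw [hc] at h8
  push_cast at h8
  obtain ⟨w, hw⟩ := h8
  have : (2 * (c : ℤ) + 1 - 2) * (2 * s' + 1) * (2 * r' + 1) =
    2 * ((2 * c - 1) * (2 * s' * r' + s' + r') + c - 1) + 1 := by ring
  omega

/-- `2 ^ f + 1` prime, `f ≥ 3` -/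
theorem four_dvd {f : ℕ} (hf : 3 ≤ f) (hp : (2 ^ f + 1).Prime) : 4 ∣ f := by
  have h8 : 8 ≤ 2 ^ f := by
    calc 8 = 2 ^ 3 := by norm_num
      _ ≤ 2 ^ f := Nat.pow_le_pow_right (by norm_num) hf
  rcases Nat.even_or_odd f with ⟨e, he⟩ | ho
  · rcases Nat.even_or_odd e with ⟨c, hc⟩ | ho
    · exact ⟨c, by omega⟩
    · exfalso
      have h5 : 5 ∣ 2 ^ f + 1 := by
        have := Odd.nat_add_dvd_pow_add_pow 4 1 ho
        rw [he, ← two_mul, pow_mul]
        simpa using this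
      have := (Nat.prime_dvd_prime_iff_eq Nat.prime_five hp).1 h5
      omega
  · exfalso
    have h3 : 3 ∣ 2 ^ f + 1 := by
      have := Odd.nat_add_dvd_pow_add_pow 2 1 ho
      simpa using this
    have := (Nat.prime_dvd_prime_iff_eq Nat.prime_three hp).1 h3
    omega

theorem dvd_exp {f : ℕ} (hf : f ≠ 0) : ∀ t : ℕ, 2 ^ f + 1 ∣ 2 ^ t + 1 → f ∣ t := by
  intro t
  induction t using Nat.strong_induction_on with
  | _ t ih =>
    intro h
    have h1 : 2 ^ f + 1 ≤ 2 ^ t + 1 := Nat.le_of_dvd (by positivity) h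
    have h2 : f ≤ t := (Nat.pow_le_pow_iff_right (by norm_num)).1 (Nat.le_of_succ_le_succ h1)
    obtain ⟨s, rfl⟩ : ∃ s, t = f + s := ⟨t - f, by omega⟩
    have h3 : 2 ^ f + 1 ∣ 2 ^ s - 1 := by
      have e : 2 ^ s * (2 ^ f + 1) - (2 ^ (f + s) + 1) = 2 ^ s - 1 := by
        have : 2 ^ s * (2 ^ f + 1) = 2 ^ (f + s) + 2 ^ s := by ring
        omega
      rw [← e]
      exact Nat.dvd_sub (dvd_mul_left _ _) h
    have hs1 : 1 ≤ 2 ^ s := Nat.one_le_two_pow
    rcases Nat.lt_or_ge s f with h4 | h4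
    · have h5 : 2 ^ s < 2 ^ f := Nat.pow_lt_pow_right (by norm_num) h4
      have h6 : 2 ^ s - 1 = 0 := by
        by_contra h7
        have := Nat.le_of_dvd (by omega) h3
        omega
      have h7 : s = 0 := by
        by_contra h7
        have : 2 ^ 1 ≤ 2 ^ s := Nat.pow_le_pow_right (by norm_num) (by omega)
        omega
      rw [h7, add_zero]
    · obtain ⟨r, rfl⟩ : ∃ r, s = f + r := ⟨s - f, by omega⟩
      have h5 : 2 ^ f + 1 ∣ 2 ^ r + 1 := by
        have e : 2 ^ r * (2 ^ f + 1) - (2 ^ (f + r) - 1) = 2 ^ r + 1 := by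
          have e1 : 2 ^ r * (2 ^ f + 1) = 2 ^ (f + r) + 2 ^ r := by ring
          rw [e1]
          generalize 2 ^ (f + r) = X at hs1 ⊢
          generalize 2 ^ r = Y
          omega
        rw [← e]
        exact Nat.dvd_sub (dvd_mul_left _ _) h3
      have h6 := ih r (by omega) h5
      exact dvd_add dvd_rfl (dvd_add dvd_rfl h6)

/-- the case `g = d`, `u` even -/
theorem no_even {p q k d t : ℕ} {T : Type*} [Group T] (h : TK p q k T) (hd : d.Prime) (hd2 : d ≠ 2) (ht : t ≠ 0)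
    (hdu : d ∣ 2 ^ t + 1) (h1 : mn q k * d * (2 ^ t + 1) = (2 ^ t) ^ d + 1)
    (h2 : ∀ f, 2 ^ f < d → 2 ^ f ∣ mn q k - 1) : False := by
  have hm := h.mn_ge
  have hd3 : 3 ≤ d := by
    have := hd.two_le
    omega
  have hdo : Odd d := hd.odd_of_ne_two hd2
  obtain ⟨u, hu⟩ : ∃ u, u = 2 ^ t := ⟨_, rfl⟩
  rw [← hu] at hdu h1
  have hu2 : 2 ≤ u := by
    rw [hu]
    calc 2 = 2 ^ 1 := by norm_num
      _ ≤ 2 ^ t := Nat.pow_le_pow_right (by norm_num) (by omega)
  have hdle : d ≤ u + 1 := Nat.le_of_dvd (by omega) hdu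
  have key : (mn q k - 1) * (d * (u + 1)) + d * u + (d - 1) = u ^ d := by
    obtain ⟨c, hc⟩ : ∃ c, mn q k = c + 1 := ⟨mn q k - 1, by omega⟩
    rw [hc] at h1 ⊢
    rw [Nat.add_sub_cancel]
    have e : (c + 1) * d * (u + 1) = c * (d * (u + 1)) + d * u + d := by ring
    omega
  have hX : ∀ X : ℕ, X ∣ mn q k - 1 → X ∣ u → X ∣ d - 1 := by
    intro X hX1 hX2
    have h3 : X ∣ (mn q k - 1) * (d * (u + 1)) + d * u := dvd_add (hX1.mul_right _) (hX2.mul_left _)
    have h4 : X ∣ u ^ d := dvd_pow hX2 hd.ne_zero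
    rw [← key] at h4
    exact (Nat.dvd_add_right h3).1 h4
  obtain ⟨f, hf⟩ : ∃ f, f = Nat.log 2 d := ⟨_, rfl⟩
  have hf1 : 2 ^ f ≤ d := hf ▸ Nat.pow_log_le_self 2 (by omega)
  have hf2 : d < 2 ^ (f + 1) := hf ▸ Nat.lt_pow_succ_log_self (by norm_num) d
  have hf0 : f ≠ 0 := by
    rintro rfl
    norm_num at hf2
    omega
  have hflt : 2 ^ f < d := by
    refine lt_of_le_of_ne hf1 fun h3 => ?_
    rw [← h3] at hdo
    exact (Nat.not_even_iff_odd.2 hdo) (even_iff_two_dvd.2 (dvd_pow_self 2 hf0))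
  have hfm := h2 f hflt
  have hdf : d = 2 ^ f + 1 := by
    rcases Nat.lt_or_ge u d with h3 | h3
    · have h4 : d = 2 ^ t + 1 := by omega
      rw [h4] at hflt hf2
      have h5 : f ≤ t := (Nat.pow_le_pow_iff_right (by norm_num)).1 (Nat.le_of_lt_succ hflt)
      have h6 : t < f + 1 := (Nat.pow_lt_pow_iff_right (a := 2) (by norm_num)).1 (by omega)
      rw [h4, show f = t by omega]
    · have h5 : f ≤ t := by
        apply (Nat.pow_le_pow_iff_right (a := 2) (by norm_num)).1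
        rw [← hu]
        omega
      obtain ⟨c, hc⟩ := hX _ hfm (by rw [hu]; exact pow_dvd_pow 2 h5)
      have h6 : c = 1 := by
        have h7 : c < 2 := by
          by_contra h8
          have : 2 ^ f * 2 ≤ 2 ^ f * c := Nat.mul_le_mul_left _ (by omega)
          rw [pow_succ] at hf2
          omega
        have h8 : c ≠ 0 := by
          rintro rfl
          rw [mul_zero] at hc
          omega
        omega
      rw [h6, mul_one] at hc
      omega
  have hf3 : 3 ≤ f := by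
    by_contra h3
    have h8m : 8 ∣ mn q k - 1 := by
      have := h.mn_mod
      omega
    have hd5 : d ≤ 5 := by
      have : 2 ^ f ≤ 2 ^ 2 := Nat.pow_le_pow_right (by norm_num) (by omega)
      omega
    rcases Nat.lt_or_ge t 3 with h4 | h4
    · have h5 : t = 1 ∨ t = 2 := by omega
      rcases h5 with rfl | rfl
      · norm_num at hu
        subst hu
        have h6 : d = 3 := by omega
        rw [h6] at h1
        norm_num at h1
        omega
      · norm_num at hu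
        subst hu
        have h6 : d = 5 := by
          obtain ⟨c, hc⟩ := hdu
          interval_cases d
          · omega
          · omega
          · rfl
        rw [h6] at h1
        norm_num at h1
        omega
    · have h5 : 8 ∣ u := by
        rw [hu, show (8 : ℕ) = 2 ^ 3 by norm_num]
        exact pow_dvd_pow 2 h4
      have h6 := hX 8 h8m h5
      have := Nat.le_of_dvd (by omega) h6
      omega
  have hf4 : 4 ∣ f := four_dvd hf3 (hdf ▸ hd)
  have hft : f ∣ t := by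
    apply dvd_exp hf0
    rw [← hdf, ← hu]
    exact hdu
  obtain ⟨a, ha⟩ := hf4
  obtain ⟨b, hb⟩ := (Dvd.intro a ha.symm : 4 ∣ f).trans hft
  have h2m := two_mn h.hk2 h.odd
  obtain ⟨Q, hQ⟩ : ∃ Q, Q = q ^ 2 ^ k := ⟨_, rfl⟩
  rw [← hQ] at h2m
  have e : (Q + 1) * d * (u + 1) = 2 * (u ^ d + 1) := by
    rw [← h2m, ← h1]
    ring
  have hd16 : d = 16 ^ a + 1 := by
    rw [hdf, ha, pow_mul]
    norm_num
  have hu16 : u = 16 ^ b := by
    rw [hu, hb, pow_mul]
    norm_num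
  have k3 : p = 3 := by
    have c1 : (16 : ℕ) ≡ 1 [MOD 3] := by decide
    have c2 : u ≡ 1 [MOD 3] := by
      rw [hu16]
      simpa using c1.pow b
    have c3 : d ≡ 1 + 1 [MOD 3] := by
      rw [hd16]
      simpa using (c1.pow a).add_right 1
    have c4 : (Q + 1) * d * (u + 1) ≡ (Q + 1) * (1 + 1) * (1 + 1) [MOD 3] :=
      (c3.mul_left _).mul (c2.add_right 1)
    have c5 : 2 * (u ^ d + 1) ≡ 2 * (1 ^ d + 1) [MOD 3] := ((c2.pow d).add_right 1).mul_left 2
    rw [one_pow] at c5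
    rw [e] at c4
    have c6 := c4.symm.trans c5
    have c7 : 3 ∣ Q := by
      unfold Nat.ModEq at c6
      omega
    rw [hQ] at c7
    obtain ⟨a', -, ha'⟩ := h.pow
    have c8 := Nat.prime_three.dvd_of_dvd_pow c7
    rw [ha'] at c8
    exact ((Nat.prime_dvd_prime_iff_eq Nat.prime_three h.prime).1 (Nat.prime_three.dvd_of_dvd_pow c8)).symm
  have k5 : p = 5 := by
    have c1 : (16 : ℕ) ≡ 1 [MOD 5] := by decide
    have c2 : u ≡ 1 [MOD 5] := by
      rw [hu16]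
      simpa using c1.pow b
    have c3 : d ≡ 1 + 1 [MOD 5] := by
      rw [hd16]
      simpa using (c1.pow a).add_right 1
    have c4 : (Q + 1) * d * (u + 1) ≡ (Q + 1) * (1 + 1) * (1 + 1) [MOD 5] :=
      (c3.mul_left _).mul (c2.add_right 1)
    have c5 : 2 * (u ^ d + 1) ≡ 2 * (1 ^ d + 1) [MOD 5] := ((c2.pow d).add_right 1).mul_left 2
    rw [one_pow] at c5
    rw [e] at c4
    have c6 := c4.symm.trans c5
    have c7 : 5 ∣ Q := by
      unfold Nat.ModEq at c6
      omega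
    rw [hQ] at c7
    obtain ⟨a', -, ha'⟩ := h.pow
    have c8 := Nat.prime_five.dvd_of_dvd_pow c7
    rw [ha'] at c8
    exact ((Nat.prime_dvd_prime_iff_eq Nat.prime_five h.prime).1 (Nat.prime_five.dvd_of_dvd_pow c8)).symm
  omega

end Cfsg.Agent.H29.TPNum
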