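import Cfsg.Agent.H29.TPNum
import Cfsg.Agent.H29.TPPerm
import Cfsg.Agent.H360.Iso.Uni
import Cfsg.Agent.H436.Names

/-!
# Block TP (S3536), the row `PSU_d(u)`, `p` does not divide `u` (helper29, task 3257)
-/

set_option autoImplicit false
set_option linter.unusedVariables false

namespace Cfsg.Agent.H29.TPPsu

open Cfsg Cfsg.Agent.H202.TP Cfsg.Agent.H360.Iso Cfsg.Agent.H29.TPNum
open Cfsg.Agent.H948.UBase Cfsg.Agent.H948.UProd Cfsg.Agent.H948.UMain

/-- `mn q k` is an isolated number -/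
theorem isoN_of_TK {p q k : ℕ} {S : Type*} [Group S] (h : TK p q k S) : IsoN S (mn q k) where
  elt := h.mem
  iso := fun x r hr hrn hrx => h.iso r x hr hrn hrx
  not_two_dvd := fun h2 => h.ne_two_of_dvd h2 rfl
  not_three_dvd := fun h3 => by
    have := h.mod_eight Nat.prime_three h3
    omega
  big := by
    have := h.mn_ge
    omega

section

variable {F : Type*} [Field F] [Fintype F] {p q k d u : ℕ}

/-- the numbers `u ^ e - (-1) ^ e`, `1 ≤ e ≤ d - 2`, are prime to `mn q k` -/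
theorem coprime_ph (hF : Fintype.card F = u ^ 2) (h : TK p q k (PSU d F u)) (hd : 4 ≤ d) {i : ℕ} (hi : i < d - 2) :
    Nat.Coprime (ph u i) (mn q k) := by
  have hfin : Finite (PSU d F u) := inferInstance
  apply Nat.Coprime.symm
  refine Nat.coprime_of_dvd fun r hr hrm hri => ?_
  exact (isoN_of_TK h).not_adj hrm (adj_two_of_lt hF hd hr (h.ne_two_of_dvd hrm) hi hri)

/-- a divisor `u ^ e - (-1) ^ e` -/
theorem le_of_dvd {m z g : ℕ} (hz : Nat.Coprime z m) (hg : 0 < g) (h : z ∣ m * g) : z ≤ g :=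
  Nat.le_of_dvd hg (hz.dvd_of_dvd_mul_left h)

theorem ph_ge {u i : ℕ} (hu : 1 ≤ u) : u ^ (i + 1) ≤ ph u i + 1 := by
  have : 1 ≤ u ^ (i + 1) := Nat.one_le_pow _ _ hu
  unfold ph
  split_ifs <;> omega

/-- case B -/
theorem case_B (hF : Fintype.card F = u ^ 2) (h : TK p q k (PSU d F u)) (hd : 4 ≤ d) (hu : 2 ≤ u)
    (hpp : ∃ l t, l.Prime ∧ t ≠ 0 ∧ u = l ^ t) (h1 : mn q k * (u + 1) = ph u (d - 2)) : False := by
  have hm := h.mn_ge
  rcases Nat.even_or_odd d with hde | hdo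
  · obtain ⟨c, hc⟩ := hde
    have e1 : ph u (d - 2) = u ^ (d - 1) + 1 := by
      rw [ph_even ⟨c - 1, by omega⟩, show d - 2 + 1 = d - 1 by omega]
    obtain ⟨y, hy⟩ := exists_blockU hF (n := d) (k := d - 2) (by omega) (by omega)
    have e2 : ph u (d - 2 - 1) = u ^ (d - 2) - 1 := by
      rw [ph_odd (by rw [Nat.not_even_iff_odd]; exact ⟨c - 2, by omega⟩), show d - 2 - 1 + 1 = d - 2 by omega]
    rw [e2] at hy
    rw [e1] at h1
    have hp1 : 1 ≤ u ^ (d - 2) := Nat.one_le_pow _ _ (by omega)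
    refine no_sub h hu hpp y ?_ fun he => ?_
    · have e3 : u ^ (d - 1) = u * u ^ (d - 2) := by
        rw [← pow_succ', show d - 2 + 1 = d - 1 by omega]
      rw [hy]
      obtain ⟨a, ha⟩ : ∃ a, mn q k = a + 1 := ⟨mn q k - 1, by omega⟩
      obtain ⟨b, hb⟩ : ∃ b, u ^ (d - 2) = b + 1 := ⟨u ^ (d - 2) - 1, by omega⟩
      rw [ha, e3, hb] at h1
      rw [ha, hb, Nat.add_sub_cancel, Nat.add_sub_cancel]
      have e4 : (a + 1) * (u + 1) = a * (u + 1) + u + 1 := by ring
      have e5 : u * (b + 1) + 1 = u * b + u + 1 := by ring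
      omega
    · rw [hy]
      exact Nat.Even.sub_odd hp1 (he.pow_of_ne_zero (by omega)) odd_one
  · obtain ⟨c, hc⟩ := hdo
    have hc2 : 2 ≤ c := by omega
    have e1 : ph u (d - 2) = u ^ (d - 1) - 1 := by
      rw [ph_odd (by rw [Nat.not_even_iff_odd]; exact ⟨c - 1, by omega⟩), show d - 2 + 1 = d - 1 by omega]
    have hz := coprime_ph hF h hd (i := c - 1) (by omega)
    have e0 : u ^ (d - 1) = u ^ c * u ^ c := by rw [← pow_add, show d - 1 = c + c by omega]
    have hp1 : 1 ≤ u ^ c := Nat.one_le_pow _ _ (by omega)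
    have e2 : u ^ (d - 1) - 1 = (u ^ c - 1) * (u ^ c + 1) := by
      rw [e0]
      obtain ⟨b, hb⟩ : ∃ b, u ^ c = b + 1 := ⟨u ^ c - 1, by omega⟩
      rw [hb, Nat.add_sub_cancel]
      have : (b + 1) * (b + 1) = b * (b + 1 + 1) + 1 := by ring
      omega
    have e3 : ph u (c - 1) ∣ mn q k * (u + 1) := by
      rw [h1, e1, e2]
      unfold ph
      rw [show c - 1 + 1 = c by omega]
      split_ifs
      · exact dvd_mul_left _ _
      · exact dvd_mul_right _ _
    have h2 := le_of_dvd hz (by omega) e3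
    have h3 := ph_ge (u := u) (i := c - 1) (by omega)
    rw [show c - 1 + 1 = c by omega] at h3
    have h4 : u ^ 2 ≤ u ^ c := Nat.pow_le_pow_right (by omega) hc2
    have h5 : u = 2 := by
      by_contra h5
      have : 3 * u ≤ u ^ 2 := by nlinarith [show 3 ≤ u by omega]
      omega
    subst h5
    have h6 : 2 ^ c * 2 ^ c ≤ 4 * 4 := Nat.mul_le_mul (by omega) (by omega)
    rw [e1, e0] at h1
    omega

/-- case A, `d` even -/
theorem case_A_even (hF : Fintype.card F = u ^ 2) (h : TK p q k (PSU d F u)) (hd : 3 ≤ d) (hu : 2 ≤ u)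
    (hde : Even d) (h1 : mn q k * Nat.gcd d (u + 1) * (u + 1) = ph u (d - 1)) : False := by
  have hm := h.mn_ge
  obtain ⟨c, hc⟩ := hde
  obtain ⟨g, hg⟩ : ∃ g, g = Nat.gcd d (u + 1) := ⟨_, rfl⟩
  rw [← hg] at h1
  have hg0 : 0 < g := hg ▸ Nat.gcd_pos_of_pos_right _ (by omega)
  have hgu : g ≤ u + 1 := hg ▸ Nat.le_of_dvd (by omega) (Nat.gcd_dvd_right _ _)
  have hgd : g ≤ d := hg ▸ Nat.le_of_dvd (by omega) (Nat.gcd_dvd_left _ _)
  have hc2 : 2 ≤ c := by omega
  have e1 : ph u (d - 1) = u ^ d - 1 := by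
    rw [ph_odd (by rw [Nat.not_even_iff_odd]; exact ⟨c - 1, by omega⟩), show d - 1 + 1 = d by omega]
  have hz := coprime_ph hF h (by omega) (i := c - 1) (by omega)
  have e0 : u ^ d = u ^ c * u ^ c := by rw [← pow_add, hc]
  have hp1 : 1 ≤ u ^ c := Nat.one_le_pow _ _ (by omega)
  have e2 : u ^ d - 1 = (u ^ c - 1) * (u ^ c + 1) := by
    rw [e0]
    obtain ⟨b, hb⟩ : ∃ b, u ^ c = b + 1 := ⟨u ^ c - 1, by omega⟩
    rw [hb, Nat.add_sub_cancel]
    have : (b + 1) * (b + 1) = b * (b + 1 + 1) + 1 := by ring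
    omega
  have e3 : ph u (c - 1) ∣ mn q k * (g * (u + 1)) := by
    rw [← mul_assoc, h1, e1, e2]
    unfold ph
    rw [show c - 1 + 1 = c by omega]
    split_ifs
    · exact dvd_mul_left _ _
    · exact dvd_mul_right _ _
  have hmg : mn q k ≤ u ^ d := by
    calc mn q k ≤ mn q k * g * (u + 1) := by
          rw [mul_assoc]
          exact Nat.le_mul_of_pos_right _ (Nat.mul_pos hg0 (by omega))
      _ = u ^ d - 1 := by rw [h1, e1]
      _ ≤ u ^ d := Nat.sub_le _ _
  rcases Nat.lt_or_ge 2 c with h3 | h3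
  · have h2 := le_of_dvd hz (Nat.mul_pos hg0 (by omega)) e3
    have h4 := ph_ge (u := u) (i := c - 1) (by omega)
    rw [show c - 1 + 1 = c by omega] at h4
    have h5 : g * (u + 1) ≤ (u + 1) * (u + 1) := Nat.mul_le_mul_right _ hgu
    have h6 : u ^ 3 ≤ u ^ c := Nat.pow_le_pow_right (by omega) h3
    have h7 : u = 2 := by
      by_contra h7
      have h8 : 3 ≤ u := by omega
      have h9 : 3 * u ^ 2 ≤ u ^ 3 := by
        rw [pow_succ u 2, mul_comm]
        exact Nat.mul_le_mul_left _ h8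
      nlinarith
    subst h7
    have h8 : 2 ^ c * 2 ^ c ≤ 10 * 10 := Nat.mul_le_mul (by omega) (by omega)
    omega
  · have hc' : c = 2 := by omega
    subst hc'
    have hd4 : d = 4 := by omega
    subst hd4
    have e4 : ph u 1 = (u + 1) * (u - 1) := ph_one (by omega)
    have e5 : u - 1 ∣ g := by
      have h4 := hz.dvd_of_dvd_mul_left e3
      rw [show 2 - 1 = 1 from rfl, e4, mul_comm g] at h4
      exact Nat.dvd_of_mul_dvd_mul_left (by omega) h4
    have h4 := Nat.le_of_dvd hg0 e5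
    have h5 : u ^ 4 ≤ 5 ^ 4 := Nat.pow_le_pow_left (by omega) 4
    omega

/-- case A, `d` odd -/
theorem case_A_odd (hF : Fintype.card F = u ^ 2) (h : TK p q k (PSU d F u)) (hd : 3 ≤ d) (hu : 2 ≤ u)
    (hpp : ∃ l t, l.Prime ∧ t ≠ 0 ∧ u = l ^ t)
    (hdo : Odd d) (h1 : mn q k * Nat.gcd d (u + 1) * (u + 1) = ph u (d - 1))
    (x : PSU d F u) (hx : orderOf x * Nat.gcd d (u + 1) = ph u (d - 2)) : False := by
  have hm := h.mn_ge
  obtain ⟨c, hc⟩ := id hdo
  obtain ⟨g, hg⟩ : ∃ g, g = Nat.gcd d (u + 1) := ⟨_, rfl⟩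
  rw [← hg] at h1 hx
  have hg0 : 0 < g := hg ▸ Nat.gcd_pos_of_pos_right _ (by omega)
  have hgd : g ∣ d := hg ▸ Nat.gcd_dvd_left _ _
  have hgu : g ∣ u + 1 := hg ▸ Nat.gcd_dvd_right _ _
  have e1 : ph u (d - 1) = u ^ d + 1 := by
    rw [ph_even ⟨c, by omega⟩, show d - 1 + 1 = d by omega]
  have e2 : ph u (d - 2) = u ^ (d - 1) - 1 := by
    rw [ph_odd (by rw [Nat.not_even_iff_odd]; exact ⟨c - 1, by omega⟩), show d - 2 + 1 = d - 1 by omega]
  rw [e1] at h1
  rw [e2] at hx
  have hp1 : 1 ≤ u ^ (d - 1) := Nat.one_le_pow _ _ (by omega)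
  by_cases hg1 : g = 1
  · rw [hg1, mul_one] at h1 hx
    refine no_sub h hu hpp x ?_ fun he => ?_
    · have e3 : u ^ d = u * u ^ (d - 1) := by
        rw [← pow_succ', show d - 1 + 1 = d by omega]
      rw [hx]
      obtain ⟨a, ha⟩ : ∃ a, mn q k = a + 1 := ⟨mn q k - 1, by omega⟩
      obtain ⟨b, hb⟩ : ∃ b, u ^ (d - 1) = b + 1 := ⟨u ^ (d - 1) - 1, by omega⟩
      rw [ha, e3, hb] at h1
      rw [ha, hb, Nat.add_sub_cancel, Nat.add_sub_cancel]
      have e4 : (a + 1) * (u + 1) = a * (u + 1) + u + 1 := by ring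
      have e5 : u * (b + 1) + 1 = u * b + u + 1 := by ring
      omega
    · rw [hx]
      exact Nat.Even.sub_odd hp1 (he.pow_of_ne_zero (by omega)) odd_one
  · have hdp : d.Prime := by
      by_contra hnp
      obtain ⟨e, he⟩ := Nat.minFac_dvd d
      obtain ⟨l, hl⟩ : ∃ l, l = d.minFac := ⟨_, rfl⟩
      rw [← hl] at he
      have hlp : l.Prime := hl ▸ Nat.minFac_prime (by omega)
      have hle : l ≤ e := by
        have h2 := Nat.minFac_sq_le_self (n := d) (by omega) hnp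
        rw [← hl, pow_two] at h2
        rw [he] at h2
        exact Nat.le_of_mul_le_mul_left h2 hlp.pos
      have hl3 : 3 ≤ l := by
        have h2 : l ≠ 2 := by
          rintro rfl
          rw [he] at hdo
          exact (Nat.not_even_iff_odd.2 hdo) (even_two_mul e)
        have := hlp.two_le
        omega
      have hlo : Odd l := (Nat.odd_mul.1 (he ▸ hdo)).1
      have heo : Odd e := (Nat.odd_mul.1 (he ▸ hdo)).2
      have hed : 3 * e ≤ d := by rw [he]; exact Nat.mul_le_mul_right _ hl3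
      have hz := coprime_ph hF h (by omega) (i := e - 1) (by omega)
      obtain ⟨e', he'⟩ := heo
      rw [ph_even ⟨e', by omega⟩, show e - 1 + 1 = e by omega] at hz
      have h2 : u ^ e + 1 ∣ mn q k * (g * (u + 1)) := by
        rw [← mul_assoc, h1, he, mul_comm l e, pow_mul]
        have := Odd.nat_add_dvd_pow_add_pow (u ^ e) 1 hlo
        simpa using this
      have h3 := le_of_dvd hz (Nat.mul_pos hg0 (by omega)) h2
      have h4 : g * (u + 1) ≤ (u + 1) * (u + 1) := Nat.mul_le_mul_right _ (Nat.le_of_dvd (by omega) hgu)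
      have h5 : u ^ 3 ≤ u ^ e := Nat.pow_le_pow_right (by omega) (by omega)
      have h6 : u = 2 := by
        by_contra h7
        have h8 : 3 ≤ u := by omega
        have h9 : 3 * u ^ 2 ≤ u ^ 3 := by
          rw [pow_succ u 2, mul_comm]
          exact Nat.mul_le_mul_left _ h8
        nlinarith
      subst h6
      have h7 : e = 3 := by
        by_contra h8
        have : 2 ^ 4 ≤ 2 ^ e := Nat.pow_le_pow_right (by norm_num) (by omega)
        omega
      have h8 : d = 9 := by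
        rw [he, h7, show l = 3 by omega]
      subst h8
      have h9 : mn q k ≤ mn q k * g * (2 + 1) := by
        rw [mul_assoc]
        exact Nat.le_mul_of_pos_right _ (Nat.mul_pos hg0 (by omega))
      rw [h1] at h9
      omega
    have hgd' : g = d := (hdp.eq_one_or_self_of_dvd g hgd).resolve_left hg1
    rw [hgd'] at h1 hx hgu
    rcases Nat.even_or_odd u with hue | huo
    · obtain ⟨l, t, hl, ht, hlt⟩ := hpp
      have hl2 : l = 2 := by
        have h2 : 2 ∣ l ^ t := hlt ▸ even_iff_two_dvd.1 hue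
        exact ((Nat.prime_dvd_prime_iff_eq Nat.prime_two hl).1 (Nat.prime_two.dvd_of_dvd_pow h2)).symm
      subst hl2
      refine no_even h hdp (by rintro rfl; omega) ht (hlt ▸ hgu) (hlt ▸ h1) fun f hf => ?_
      obtain ⟨y, hy⟩ := TPPerm.exists_two_pow hF hue hd hf
      exact h.two f y (by rw [hy])
    · exact no_odd (m := mn q k) (N := orderOf x) hdo hd huo (by obtain ⟨a, ha⟩ := huo; omega) (by omega) h1 hx
        fun j hj => h.two j x hj

end

/-- **The row `PSU_d(u)`.** -/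
theorem psu {p q k d u : ℕ} {S : Type*} [Group S] [Finite S] (h : Cfsg.Agent.H202.TP.TK p q k S)
    (hg : H436.IsNamed (.psu d u) S) (hv : ¬ p ∣ u) : False := by
  obtain ⟨F, _, _, hF, ⟨e⟩⟩ := hg.real
  obtain ⟨hn, h32, -⟩ := hg.cond
  have hu : 2 ≤ u := LieClassical.HermBasic.two_le hF
  have hT := h.congr e
  have hm := h.mn_ge
  have hpp : ∃ l t, l.Prime ∧ t ≠ 0 ∧ u = l ^ t := by
    obtain ⟨l, t, hl, -, hlt, ht⟩ := LieClassical.HermBasic.exists_prime_pow hF
    exact ⟨l, t, hl, by omega, hlt⟩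
  rcases psu_row hF hn h32 (isoN_of_TK hT) with ⟨h1, x, hx⟩ | ⟨hn4, -, h1, -⟩ | ⟨-, -, h1⟩ | ⟨-, -, h1⟩
  · rcases Nat.even_or_odd d with hde | hdo
    · exact case_A_even hF hT hn hu hde h1
    · exact case_A_odd hF hT hn hu hpp hdo h1 x hx
  · exact case_B hF hT hn4 hu hpp h1
  · omega
  · omega

end Cfsg.Agent.H29.TPPsu
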